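import Cfsg.Agent.Signalizer.MinSimple
import Cfsg.Agent.PCore.AInvariant
import Cfsg.Agent.PCore.PConstrained
import Cfsg.Agent.CoprimeAction.Basic
import Mathlib.GroupTheory.IsSubnormal
import Mathlib.Tactic.Linarith

/-! Passing the transitivity property to a `π(A)`-overgroup; criteria for the hypothesis. -/

set_option autoImplicit false

namespace CfsgLib.Signalizer

open scoped Pointwise commutatorElement

universe u

variable {G : Type u} [Group G] [Finite G] {A : Subgroup G} {q : ℕ} [hq : Fact q.Prime]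

local notation "π'" => Cfsg.primesNotDvd (Nat.card A)

omit hq in
theorem normalizer_le_normalizer_piCoreOf (π : Set ℕ) (X : Subgroup G) :
    Subgroup.normalizer (X : Set G) ≤ Subgroup.normalizer (Cfsg.piCoreOf π X : Set G) := by
  have key : ∀ n ∈ Subgroup.normalizer (X : Set G),
      MulAut.conj n • Cfsg.piCoreOf π X ≤ Cfsg.piCoreOf π X := by
    intro n hn
    set R := Cfsg.piCoreOf π X
    have hle : MulAut.conj n • R ≤ X := by
      rw [← conj_smul_eq_self hn]
      exact Subgroup.pointwise_smul_le_pointwise_smul_iff.2 (piCoreOf_le π X)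
    have hXn : X ≤ Subgroup.normalizer ((MulAut.conj n • R : Subgroup G) : Set G) := by
      refine CoprimeAction.le_normalizer_of_conj_eq fun x hx => ?_
      have hx' : n⁻¹ * x * n ∈ X := (Subgroup.mem_normalizer_iff''.1 hn x).1 hx
      rw [← conj_smul_mul, show x * n = n * (n⁻¹ * x * n) by group, conj_smul_mul,
        conj_smul_eq_self (le_normalizer_piCoreOf π X hx')]
    have : ((MulAut.conj n • R).subgroupOf X).Normal := Subgroup.normal_subgroupOf_of_le_normalizer hXn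
    have hsub := Hall.le_piCore (N := (MulAut.conj n • R).subgroupOf X) (π := π) (by
      intro r hr hd
      refine piCoreOf_isPi π X r hr ?_
      rw [← CoprimeAction.card_conj_smul n R]
      exact hd.trans (PCore.card_subgroupOf_dvd _ _))
    intro r hr
    exact ⟨⟨r, hle hr⟩, hsub hr, rfl⟩
  refine CoprimeAction.le_normalizer_of_conj_eq fun n hn => le_antisymm (key n hn) ?_
  have h := key n⁻¹ (inv_mem hn)
  rwa [map_inv, Subgroup.pointwise_smul_subset_iff, inv_inv] at h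

omit hq in
theorem coreCentralizer_inf_eq (hG : Cfsg.IsMinSimpleOddOrder G) (hA : Cfsg.TransitivityHypothesis A)
    {B : Subgroup G} (hAB : A ≤ B) :
    Cfsg.piCoreOf π' (Subgroup.centralizer (A : Set G)) ⊓ Subgroup.centralizer (B : Set G) =
      Cfsg.piCoreOf π' (Subgroup.centralizer (B : Set G)) := by
  set C := Subgroup.centralizer (B : Set G)
  set K := Cfsg.piCoreOf π' (Subgroup.centralizer (A : Set G))
  have hCA : C ≤ Subgroup.centralizer (A : Set G) := Subgroup.centralizer_le hAB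
  refine le_antisymm ?_ (le_inf (le_coreCentralizer hG hA ((piCoreOf_le _ _).trans hCA) (piCoreOf_isPi _ _))
    (piCoreOf_le _ _))
  have : ((K ⊓ C).subgroupOf C).Normal := Subgroup.normal_subgroupOf_of_le_normalizer
    (le_normalizer_inf (hCA.trans (le_normalizer_piCoreOf _ _)) Subgroup.le_normalizer)
  have hsub := Hall.le_piCore (N := (K ⊓ C).subgroupOf C) (π := π') (by
    intro r hr hd
    exact piCoreOf_isPi _ _ r hr
      ((hd.trans (PCore.card_subgroupOf_dvd _ _)).trans (Subgroup.card_dvd_of_le inf_le_left)))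
  intro r hr
  exact ⟨⟨r, (Subgroup.mem_inf.1 hr).2⟩, hsub hr, rfl⟩

/-- Maximal `B`-invariant `q`-subgroups are maximal `A`-invariant ones and form one orbit. -/
def Trans (A B : Subgroup G) (q : ℕ) : Prop :=
  Cfsg.maxInvSubgroups ⊤ B {q} ⊆ Cfsg.maxInvSubgroups ⊤ A {q} ∧
    ∀ Q₁ ∈ Cfsg.maxInvSubgroups ⊤ B {q}, ∀ Q₂ ∈ Cfsg.maxInvSubgroups ⊤ B {q},
      ∃ k ∈ Cfsg.piCoreOf (Cfsg.primesNotDvd (Nat.card A)) (Subgroup.centralizer (B : Set G)),
        Q₂ = MulAut.conj k • Q₁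

theorem conj_mem_maxInv_of_normalizer {B Y : Subgroup G} {c : G}
    (hc : c ∈ Subgroup.normalizer (B : Set G)) (hY : Y ∈ Cfsg.maxInvSubgroups ⊤ B {q}) :
    MulAut.conj c • Y ∈ Cfsg.maxInvSubgroups ⊤ B {q} := by
  have key : ∀ {d : G}, d ∈ Subgroup.normalizer (B : Set G) → ∀ {Z : Subgroup G},
      Z ∈ Cfsg.invSubgroups ⊤ B {q} → MulAut.conj d • Z ∈ Cfsg.invSubgroups ⊤ B {q} := by
    intro d hd Z hZ
    rw [mem_invSubgroups_top_singleton] at hZ ⊢
    refine ⟨by rw [conj_smul_eq_map]; exact hZ.1.map _, CoprimeAction.le_normalizer_of_conj_eq fun b hb => ?_⟩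
    have hb' : d⁻¹ * b * d ∈ B := (Subgroup.mem_normalizer_iff''.1 hd b).1 hb
    rw [← conj_smul_mul, show b * d = d * (d⁻¹ * b * d) by group, conj_smul_mul, conj_smul_eq_self (hZ.2 hb')]
  refine ⟨key hc hY.1, fun R hR hle => ?_⟩
  have h := hY.2 _ (key (inv_mem hc) hR)
    (by rw [map_inv, Subgroup.subset_pointwise_smul_iff, inv_inv]; exact hle)
  rw [← h, ← conj_smul_mul, mul_inv_cancel, map_one, one_smul]

/-- The step from a normal subgroup. -/
theorem trans_step (hG : Cfsg.IsMinSimpleOddOrder G) (hA : Cfsg.TransitivityHypothesis A)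
    (hqA : ¬ q ∣ Nat.card A) {B C : Subgroup G} (hAB : A ≤ B) (hBC : B ≤ C)
    (hCB : C ≤ Subgroup.normalizer (B : Set G)) (hC : ∀ r : ℕ, r.Prime → r ∣ Nat.card C → r ∣ Nat.card A)
    (hB : Trans A B q) : Trans A C q := by
  let : MulAction G (Subgroup G) := MulAction.compHom _ (MulAut.conj : G →* MulAut G)
  have hcopC : ∀ O : Subgroup G, Cfsg.IsPiSubgroup π' O → (Nat.card C).Coprime (Nat.card O) := fun O hO =>
    Nat.coprime_of_dvd fun r hr hrC hrO => (hO r hr hrO).2 (hC r hr hrC)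
  set KB := Cfsg.piCoreOf π' (Subgroup.centralizer (B : Set G))
  have hCKB : C ≤ Subgroup.normalizer (KB : Set G) := by
    refine le_trans ?_ (normalizer_le_normalizer_piCoreOf _ _)
    intro c hc
    refine Subgroup.mem_normalizer_iff.2 fun x => ?_
    simp only [Subgroup.mem_centralizer_iff]
    constructor <;> intro h b hb
    · have := h _ ((Subgroup.mem_normalizer_iff''.1 (hCB hc) b).1 hb)
      calc b * (c * x * c⁻¹) = c * ((c⁻¹ * b * c) * x) * c⁻¹ := by group
        _ = c * x * c⁻¹ * b := by rw [this]; group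
    · have := h _ ((Subgroup.mem_normalizer_iff.1 (hCB hc) b).1 hb)
      calc b * x = c⁻¹ * ((c * b * c⁻¹) * (c * x * c⁻¹)) * c := by group
        _ = x * b := by rw [this]; group
  have hsolvKB : Group.IsSolvable C ∨ Group.IsSolvable KB := by
    refine Or.inr ?_
    have hne : KB ≠ ⊤ := fun h => normalizer_ne_top hG.2.1 hA.1 hA.2.1 (top_unique (h ▸
      ((piCoreOf_le _ _).trans ((Subgroup.centralizer_le hAB).trans (Subgroup.centralizer_le_normalizer _)))))
    exact hG.2.2.2 KB hne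
  obtain ⟨Q₀, hQ₀, -⟩ := exists_max_ge (q := q) (H := ⊤) (A := B) (Y := ⊥)
    (mem_invSubgroups_top_singleton.2 ⟨IsPGroup.of_bot,
      by rw [Subgroup.normalizer_eq_top (H := (⊥ : Subgroup G))]; exact le_top⟩)
  have htr : ∀ H ∈ Cfsg.maxInvSubgroups ⊤ B {q}, ∀ H' ∈ Cfsg.maxInvSubgroups ⊤ B {q},
      ∃ k ∈ KB, k • H = H' := fun H hH H' hH' => by
    obtain ⟨k, hk, he⟩ := hB.2 H hH H' hH'
    exact ⟨k, hk, he.symm⟩
  obtain ⟨Q, hQ, hfix⟩ := CoprimeAction.exists_fixed hCKB (hcopC KB (piCoreOf_isPi _ _)) hsolvKB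
    (Cfsg.maxInvSubgroups ⊤ B {q}) ⟨Q₀, hQ₀⟩
    (fun k hk H hH => conj_mem_maxInv_of_normalizer
      (Subgroup.centralizer_le_normalizer _ (piCoreOf_le _ _ hk)) hH)
    (fun c hc H hH => conj_mem_maxInv_of_normalizer (hCB hc) hH) htr
  have hQC : Q ∈ Cfsg.invSubgroups ⊤ C {q} := mem_invSubgroups_top_singleton.2
    ⟨(mem_invSubgroups_top_singleton.1 hQ.1).1, CoprimeAction.le_normalizer_of_conj_eq hfix⟩
  have hsub : Cfsg.maxInvSubgroups ⊤ C {q} ⊆ Cfsg.maxInvSubgroups ⊤ A {q} := by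
    intro R hR
    obtain ⟨hRq, hCR⟩ := mem_invSubgroups_top_singleton.1 hR.1
    rcases eq_or_ne R ⊥ with hR0 | hR0
    · have := hR.2 Q hQC (hR0 ▸ bot_le)
      rw [← this]; exact hB.1 hQ
    set N := Subgroup.normalizer (R : Set G)
    have hAC : A ≤ C := hAB.trans hBC
    have hRtop : R ≠ ⊤ := fun h => hA.1 (by
      have h1 := CoprimeAction.inf_eq_bot_of_coprime
        (coprime_card_of_isPi (A := A) (Hall.isPiSubgroup_of_isPGroup hq.out (⟨hq.out, hqA⟩ : q ∈ π') hRq))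
      rwa [h, inf_top_eq] at h1)
    have hN : N ≠ ⊤ := normalizer_ne_top hG.2.1 hR0 hRtop
    set O := Cfsg.piCoreOf π' N
    have hCO : C ≤ Subgroup.normalizer (O : Set G) := hCR.trans (le_normalizer_piCoreOf _ N)
    have hRO : R ≤ O := le_piCoreOf_of_mem hA hN (hAC.trans hCR)
      (isPGroup_mem_invSubgroups hqA Subgroup.le_normalizer hRq (hAC.trans hCR))
    have hsO : Group.IsSolvable C ∨ Group.IsSolvable O := by
      have := hG.2.2.2 N hN
      exact Or.inr (Group.isSolvable_of_isSolvable_injective (Subgroup.inclusion_injective (piCoreOf_le π' N)))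
    obtain ⟨P, hRP, hCP⟩ := CoprimeAction.exists_invariant_sylow_ge hCO (hcopC O (piCoreOf_isPi _ _)) hsO
      hRO hRq hCR
    have hPR : (P : Subgroup O).map O.subtype = R :=
      hR.2 _ (mem_invSubgroups_top_singleton.2 ⟨P.2.map _, hCP⟩) hRP
    have hcard : Nat.card R = q ^ (Nat.card O).factorization q := hPR ▸ CoprimeAction.card_sylow_map P
    obtain ⟨S, hS, hRS⟩ := exists_max_ge (q := q) (H := ⊤) (A := A) (Y := R)
      (mem_invSubgroups_top_singleton.2 ⟨hRq, hAC.trans hCR⟩)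
    obtain ⟨hSq, hAS⟩ := mem_invSubgroups_top_singleton.1 hS.1
    rcases hRS.eq_or_lt with he | hlt
    · exact he ▸ hS
    refine absurd ?_ (exists_mem_normalizer_of_lt hSq hlt)
    have hSN : S ⊓ N ≤ O := le_piCoreOf_of_mem hA hN (hAC.trans hCR)
      (isPGroup_mem_invSubgroups hqA inf_le_right (hSq.to_le inf_le_left)
        (le_normalizer_inf hAS ((hAC.trans hCR).trans Subgroup.le_normalizer)))
    obtain ⟨n, hn⟩ := IsPGroup.iff_card.1 (hSq.to_le (inf_le_left : S ⊓ N ≤ S))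
    have hle : Nat.card ↥(S ⊓ N) ≤ Nat.card R := by
      rw [hcard, hn]
      exact Nat.pow_le_pow_right hq.out.pos ((Nat.Prime.pow_dvd_iff_le_factorization hq.out Nat.card_pos.ne').1
        (hn ▸ Subgroup.card_dvd_of_le hSN))
    exact (Subgroup.eq_of_le_of_card_ge (le_inf hRS Subgroup.le_normalizer) hle).symm.le
  refine ⟨hsub, fun R₁ h₁ R₂ h₂ => ?_⟩
  have hmax : ∀ R, R ∈ Cfsg.maxInvSubgroups ⊤ C {q} →
      R ∈ Cfsg.maxInvSubgroups ⊤ B {q} ∧ ∀ c ∈ C, c • R = R := by
    intro R hR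
    obtain ⟨hRq, hCR⟩ := mem_invSubgroups_top_singleton.1 hR.1
    refine ⟨⟨mem_invSubgroups_top_singleton.2 ⟨hRq, hBC.trans hCR⟩, fun T hT hle => (hsub hR).2 T ?_ hle⟩,
      fun c hc => conj_smul_eq_self (hCR hc)⟩
    obtain ⟨hTq, hBT⟩ := mem_invSubgroups_top_singleton.1 hT
    exact mem_invSubgroups_top_singleton.2 ⟨hTq, hAB.trans hBT⟩
  obtain ⟨c, hc, hce⟩ := CoprimeAction.fixed_transitive hCKB (hcopC KB (piCoreOf_isPi _ _)) hsolvKB
    (Cfsg.maxInvSubgroups ⊤ B {q}) (fun c hc H hH => conj_mem_maxInv_of_normalizer (hCB hc) hH) htr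
    (hmax R₁ h₁).1 (hmax R₂ h₂).1 (hmax R₁ h₁).2 (hmax R₂ h₂).2
  refine ⟨c, ?_, hce.symm⟩
  rw [← coreCentralizer_inf_eq hG hA (hAB.trans hBC)]
  obtain ⟨hc1, hc2⟩ := Subgroup.mem_inf.1 hc
  refine Subgroup.mem_inf.2 ⟨?_, hc2⟩
  have := (coreCentralizer_inf_eq hG hA hAB).symm.le hc1
  exact (Subgroup.mem_inf.1 this).1

theorem trans_of_subnormal (hG : Cfsg.IsMinSimpleOddOrder G) (hA : Cfsg.TransitivityHypothesis A)
    (hqA : ¬ q ∣ Nat.card A) {P : Subgroup G} (hAP : A ≤ P)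
    (hP : ∀ r : ℕ, r.Prime → r ∣ Nat.card P → r ∣ Nat.card A) (hsn : (A.subgroupOf P).IsSubnormal)
    (htr : Trans A A q) : Trans A P q := by
  have key : ∀ H : Subgroup P, H.IsSubnormal → A ≤ H.map P.subtype → Trans A (H.map P.subtype) q →
      Trans A P q := by
    intro H hH
    induction hH with
    | top => intro _ h; rwa [← MonoidHom.range_eq_map, Subgroup.range_subtype] at h
    | step H K hle _ hN ih =>
      intro hAH h
      have hHK : H.map P.subtype ≤ K.map P.subtype := Subgroup.map_mono hle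
      refine ih (hAH.trans hHK) (trans_step hG hA hqA hAH hHK ?_ (fun r hr hd => hP r hr
        (hd.trans (Subgroup.card_dvd_of_le (Subgroup.map_subtype_le K)))) h)
      rintro _ ⟨k, hk, rfl⟩
      refine Subgroup.le_normalizer_map _ (Subgroup.mem_map_of_mem _ ?_)
      exact (Subgroup.normal_subgroupOf_iff_le_normalizer hle).1 hN hk
  have e : (A.subgroupOf P).map P.subtype = A := Subgroup.map_subgroupOf_eq_of_le hAP
  exact key _ hsn e.ge (by rw [e]; exact htr)

omit hq in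
theorem commutator_sup_le {K L : Subgroup G} (hn : L ≤ Subgroup.normalizer (K : Set G)) :
    ⁅K ⊔ L, K ⊔ L⁆ ≤ K ⊔ ⁅L, L⁆ := by
  have hc : ∀ l ∈ L, ∀ k ∈ K, l * k * l⁻¹ ∈ K := fun l hl k hk => CoprimeAction.conj_mem hn hl hk
  rw [Subgroup.commutator_le]
  intro a ha b hb
  rw [← SetLike.mem_coe, Subgroup.coe_mul_of_right_le_normalizer_left _ _ hn] at ha hb
  obtain ⟨k, hk, l, hl, rfl⟩ := ha
  obtain ⟨k', hk', l', hl', rfl⟩ := hb
  have hm : l * l' * l⁻¹ ∈ L := L.mul_mem (L.mul_mem hl hl') (L.inv_mem hl)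
  have e : ⁅k * l, k' * l'⁆ = (k * (l * k' * l⁻¹) * ((l * l' * l⁻¹) * k⁻¹ * (l * l' * l⁻¹)⁻¹)) *
      ⁅l, l'⁆ * k'⁻¹ := by
    simp only [commutatorElement_def]; group
  show ⁅k * l, k' * l'⁆ ∈ _
  rw [e]
  refine mul_mem (mul_mem (Subgroup.mem_sup_left ?_) (Subgroup.mem_sup_right
    (Subgroup.commutator_mem_commutator hl hl'))) (Subgroup.mem_sup_left (K.inv_mem hk'))
  exact K.mul_mem (K.mul_mem hk (hc l hl k' hk')) (hc _ hm _ (K.inv_mem hk))

omit hq in
/-- An element of `L` of order prime to `|K|`, lying in `K L'`, lies in `L'`. -/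
theorem mem_commutator_of_coprime {K L : Subgroup G} (hn : L ≤ Subgroup.normalizer (K : Set G)) {x : G}
    (hx : x ∈ L) (hcop : (orderOf x).Coprime (Nat.card K)) (hmem : x ∈ ⁅K ⊔ L, K ⊔ L⁆) : x ∈ ⁅L, L⁆ := by
  have h := commutator_sup_le hn hmem
  have hL' : ⁅L, L⁆ ≤ L := by
    rw [Subgroup.commutator_le]
    exact fun a ha b hb => L.mul_mem (L.mul_mem (L.mul_mem ha hb) (L.inv_mem ha)) (L.inv_mem hb)
  rw [← SetLike.mem_coe, Subgroup.coe_mul_of_right_le_normalizer_left _ _ (hL'.trans hn)] at h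
  obtain ⟨k, hk, c, hc, he⟩ := h
  have hkL : k ∈ L := by
    rw [show k = x * c⁻¹ by rw [← he]; group]
    exact L.mul_mem hx (L.inv_mem (hL' hc))
  set π := QuotientGroup.mk' (_root_.commutator L)
  have hmap : (_root_.commutator L).map L.subtype = ⁅L, L⁆ := Subgroup.map_subtype_commutator L
  have hcm : (⟨c, hL' hc⟩ : L) ∈ _root_.commutator L := by
    obtain ⟨c', hc', hcc⟩ := hmap.symm.le hc
    have : c' = ⟨c, hL' hc⟩ := Subtype.ext hcc
    rwa [← this]
  have hxk : π ⟨x, hx⟩ = π ⟨k, hkL⟩ := by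
    refine QuotientGroup.eq.2 ?_
    have e2 : (⟨x, hx⟩ : L)⁻¹ * ⟨k, hkL⟩ = (⟨c, hL' hc⟩ : L)⁻¹ := by
      apply Subtype.ext
      show x⁻¹ * k = c⁻¹
      rw [← he]; group
    rw [e2]; exact Subgroup.inv_mem _ hcm
  have h1 : orderOf (π ⟨x, hx⟩) ∣ orderOf x := (orderOf_map_dvd π _).trans (dvd_of_eq (Subgroup.orderOf_mk ..))
  have h2 : orderOf (π ⟨x, hx⟩) ∣ Nat.card K := by
    rw [hxk]
    exact ((orderOf_map_dvd π _).trans (dvd_of_eq (Subgroup.orderOf_mk ..))).trans
      (Subgroup.orderOf_dvd_natCard _ hk)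
  have h3 : π ⟨x, hx⟩ = 1 := orderOf_eq_one_iff.1 (Nat.eq_one_of_dvd_coprimes hcop h1 h2)
  exact hmap.le ⟨⟨x, hx⟩, (QuotientGroup.eq_one_iff _).1 h3, rfl⟩

/-- Criterion for the transitivity hypothesis: an abelian `p`-subgroup containing every element of
order `p` of its centralizer. -/
theorem transitivityHypothesis_of_omega (hG : Cfsg.IsMinSimpleOddOrder G) {p : ℕ} [hp : Fact p.Prime]
    (hpG : p ∣ Nat.card G) {A : Subgroup G} (hAp : IsPGroup p A) [IsMulCommutative A] (hA1 : A ≠ ⊥)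
    (hΩ : ∀ x ∈ Subgroup.centralizer (A : Set G), x ^ p = 1 → x ∈ A) :
    Cfsg.TransitivityHypothesis A := by
  have hodd : p ≠ 2 := by
    rintro rfl
    exact (Nat.not_even_iff_odd.2 hG.1) (even_iff_two_dvd.2 hpG)
  have hAt : A ≠ ⊤ := by
    rintro rfl
    exact hG.2.2.1 ⟨⟨fun x y => congrArg Subtype.val
      (mul_comm' (⟨x, Subgroup.mem_top x⟩ : (⊤ : Subgroup G)) ⟨y, Subgroup.mem_top y⟩)⟩⟩
  refine ⟨hA1, hAt, fun X hX hAX => le_antisymm (sSup_le ?_) (le_sSup ⟨piCoreOf_le _ X, piCoreOf_isPi _ X,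
    hAX.trans (le_normalizer_piCoreOf _ X)⟩)⟩
  rintro Y ⟨hYX, hY, hAY⟩
  have hpA : p ∣ Nat.card A := by
    obtain ⟨n, hn⟩ := IsPGroup.iff_card.1 hAp
    rw [hn]
    refine dvd_pow_self p ?_
    rintro rfl
    exact hA1 (Subgroup.card_eq_one.1 (by rw [hn, pow_zero]))
  have hYc : (Nat.card (Y.subgroupOf X)).Coprime p :=
    PCore.coprime_of_not_dvd fun hd => (hY p hp.out (hd.trans (PCore.card_subgroupOf_dvd Y X))).2 hpA
  have := hG.2.2.2 X hX
  have hn : A.subgroupOf X ≤ Subgroup.normalizer ((Y.subgroupOf X : Subgroup X) : Set X) := by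
    rw [← Subgroup.subgroupOf_normalizer_eq hYX]
    exact Subgroup.comap_mono hAY
  have hle : Y.subgroupOf X ≤ Cfsg.pPrimeCore p X := by
    refine PCore.le_pPrimeCore_of_omega hodd PCore.isPConstrained_of_isSolvable hAp.comap_subtype
      (fun x hx hxp => hΩ x (Subgroup.mem_centralizer_iff.2 fun a ha => ?_) (by simpa [Subtype.ext_iff] using hxp))
      hYc hn
    exact congrArg Subtype.val (Subgroup.mem_centralizer_iff.1 hx ⟨a, hAX ha⟩ ha)
  have : (Cfsg.pPrimeCore p X).Normal := Subgroup.sSup_normal _ fun _ h => h.1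
  have hpi : Cfsg.IsPiSubgroup (Cfsg.primesNotDvd (Nat.card A)) (Cfsg.pPrimeCore p X) := by
    intro r hr hd
    refine ⟨hr, fun hrA => ?_⟩
    obtain ⟨n, hn⟩ := IsPGroup.iff_card.1 hAp
    rw [hn] at hrA
    rw [(Nat.prime_dvd_prime_iff_eq hr hp.out).1 (hr.dvd_of_dvd_pow hrA)] at hd
    exact PCore.not_dvd_card_pPrimeCore p X hd
  intro y hy
  exact ⟨⟨y, hYX hy⟩, Hall.le_piCore hpi (hle hy), rfl⟩

/-- An SCN subgroup contains every `p`-element of its centralizer. -/
theorem mem_of_scn {p : ℕ} [hp : Fact p.Prime] {A : Subgroup G} (P : Sylow p G)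
    (h : Cfsg.IsSCN (P : Subgroup G) A) {x : G} (hx : x ∈ Subgroup.centralizer (A : Set G))
    (hxp : x ^ p = 1) : x ∈ A := by
  obtain ⟨hAP, hPA, hPC⟩ := h
  set C := Subgroup.centralizer (A : Set G)
  set N := Subgroup.normalizer (A : Set G)
  have hPN : ¬ p ∣ (P : Subgroup G).relIndex N := fun hd =>
    P.not_dvd_index (hd.trans (Subgroup.relIndex_dvd_index_of_le hPA))
  have hAC : A ≤ C := fun a ha => by
    have := Subgroup.mem_inf.1 (hPC.ge ha)
    exact this.2
  have hidx : ¬ p ∣ A.relIndex C := by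
    rw [show A.relIndex C = (P : Subgroup G).relIndex C by
      rw [← Subgroup.inf_relIndex_right (P : Subgroup G) C, hPC]]
    have hCn : (C.subgroupOf N).Normal := by
      refine Subgroup.normal_subgroupOf_of_le_normalizer ?_
      intro n hn
      refine Subgroup.mem_normalizer_iff.2 fun y => ?_
      simp only [C, Subgroup.mem_centralizer_iff]
      constructor <;> intro h a ha
      · have := h _ ((Subgroup.mem_normalizer_iff''.1 hn a).1 ha)
        calc a * (n * y * n⁻¹) = n * ((n⁻¹ * a * n) * y) * n⁻¹ := by group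
          _ = n * y * n⁻¹ * a := by rw [this]; group
      · have := h _ ((Subgroup.mem_normalizer_iff.1 hn a).1 ha)
        calc a * y = n⁻¹ * ((n * a * n⁻¹) * (n * y * n⁻¹)) * n := by group
          _ = y * a := by rw [this]; group
    set P' := (P : Subgroup G).subgroupOf N
    intro hd
    refine hPN (hd.trans ?_)
    have e : (P : Subgroup G).relIndex C = P'.relIndex (C.subgroupOf N) :=
      (Subgroup.relIndex_subgroupOf (Subgroup.centralizer_le_normalizer _)).symm
    set C' := C.subgroupOf N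
    rw [e]
    have hmul : P'.relIndex C' = P'.relIndex (P' ⊔ C') := by
      have h1 := Subgroup.relIndex_mul_relIndex ⊥ (P' ⊓ C') C' bot_le inf_le_right
      have h2 := Subgroup.relIndex_mul_relIndex ⊥ P' (P' ⊔ C') bot_le le_sup_left
      simp only [Subgroup.relIndex_bot_left, Subgroup.inf_relIndex_right] at h1 h2
      have h3 := Hall.card_sup_mul_card_inf C' P'
      rw [sup_comm C' P', inf_comm C' P', ← h2, ← h1] at h3
      have hpos : 0 < Nat.card P' * Nat.card ↥(P' ⊓ C') := mul_pos Nat.card_pos Nat.card_pos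
      refine Nat.eq_of_mul_eq_mul_left hpos ?_
      linarith [h3]
    rw [hmul]
    exact (Subgroup.relIndex_dvd_index_of_le (le_sup_left : P' ≤ P' ⊔ C')).trans (dvd_of_eq rfl)
  have hA' : (A.subgroupOf C).Normal := Subgroup.normal_subgroupOf_of_le_normalizer
    (Subgroup.centralizer_le_normalizer _)
  set π := QuotientGroup.mk' (A.subgroupOf C)
  have h1 : orderOf (π ⟨x, hx⟩) ∣ p :=
    orderOf_dvd_of_pow_eq_one (by rw [← map_pow, show (⟨x, hx⟩ : C) ^ p = 1 from Subtype.ext hxp, map_one])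
  have h2 : orderOf (π ⟨x, hx⟩) ∣ A.relIndex C := orderOf_dvd_natCard _
  rcases (Nat.dvd_prime hp.out).1 h1 with h | h
  · have h' : π ⟨x, hx⟩ = 1 := orderOf_eq_one_iff.1 h
    exact Subgroup.mem_subgroupOf.1 ((QuotientGroup.eq_one_iff (N := A.subgroupOf C) _).1 h')
  · exact absurd (h ▸ h2) hidx

end CfsgLib.Signalizer
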